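import Groth.Agent.Dual.H492.TensShift
import Groth.Agent.Dual.H379.TwistMain
import Groth.Agent.Dcoh.DerPull2
import Groth.Agent.S0911
import Groth.Prelude.Def_Dual3
import Groth.Agent.S1002

/-!
# The upper shriek functor of an open part of a proper flat morphism with trivial dualizing complex

`c` a compactification of `g : U ⟶ Y` with `c.fbar` proper, flat, locally of finite presentation, `a` a right
adjoint of `R(c.fbar)_*`; if `a(O)|_U ≅ O_U⟦n⟧`, then `K ↦ a(K)|_U` is `Lg^*(-)⟦n⟧`.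
-/

set_option autoImplicit false

universe u

open CategoryTheory CategoryTheory.Limits AlgebraicGeometry MonoidalCategory

attribute [local instance] HasDerivedCategory.standard

open scoped Groth.Agent.Dcoh.MonCat Groth.Agent.Dcoh.ModD

namespace Groth.Agent.Dual.H492.Glue

open Groth.Agent.Dcoh Groth.Agent.PerfC.DTens Groth.Agent.Dual.H379 Groth.Agent.Dual.H379.TwistMain

variable {U Y : Scheme.{u}}

/-- `(K ⊗ B)|_U ≅ K|_U ⊗ B|_U`, natural in `K`. -/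
theorem nonempty_restrict_tensor {X : Scheme.{u}} (j : U ⟶ X) [IsOpenImmersion j]
    [PreservesFiniteLimits (Scheme.Modules.restrictFunctor j)] [DCoh.HasLpull j] (B : DCoh.D X) :
    Nonempty (tensorRight B ⋙ DCoh.restrictD j ≅ DCoh.Lpull j ⋙ tensorRight ((DCoh.restrictD j).obj B)) := by
  let := DQMon.lpullMon j
  let e := DerPull.lpullOpenIso j
  exact ⟨Functor.isoWhiskerLeft _ e.symm ≪≫ (Functor.Monoidal.commTensorRight (DCoh.Lpull j) B).symm ≪≫
    Functor.isoWhiskerLeft _ (MonAdj.tensorRightIso (e.app B))⟩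

/-- The upper shriek functor when the dualizing complex is trivial on `U`. -/
theorem main {g : U ⟶ Y} (c : DEt.Compactification g)
    [CompactSpace c.Xbar] [QuasiSeparatedSpace c.Xbar] [CompactSpace Y] [QuasiSeparatedSpace Y]
    [DCoh.HasRpush c.fbar] (hc : DCoh.RpushPreservesQCoh c.fbar) (a : DCoh.DQCoh Y ⥤ DCoh.DQCoh c.Xbar)
    (adj : DCoh.RpushQ c.fbar hc ⊣ a) [PreservesFiniteLimits (Scheme.Modules.restrictFunctor c.j)]
    [DCoh.HasLpull g] [Flat c.fbar] [LocallyOfFinitePresentation c.fbar]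
    (O : DCoh.DQCoh Y) (hO : Nonempty (O.obj ≅ DCoh.inD Y (Coh.structureModule Y))) (n : ℤ)
    (h : Nonempty ((DCoh.restrictD c.j).obj (a.obj O).obj ≅ (DCoh.inD U (Coh.structureModule U))⟦n⟧)) :
    Nonempty (Dual3.shriekC c a ≅
      ObjectProperty.ι _ ⋙ DCoh.Lpull g ⋙ shiftFunctor (DCoh.D U) n) := by
  have := DerPull.hasLpull c.fbar
  have := DerPull.hasLpull c.j
  have : DCoh.HasLpull (c.j ≫ c.fbar) := DerPull.hasLpull _
  obtain ⟨eO⟩ := hO
  obtain ⟨e⟩ := h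
  have h1 := isIso_θ c.fbar hc adj (fun P hP => Groth.Agent.S1002.result c.fbar P hP)
  have h2 : IsIso (θ c.fbar hc adj) := NatIso.isIso_of_isIso_app _
  let e1 : LQ c.fbar ⋙ tensorRight (a.obj (𝟙_ (DCoh.DQCoh Y))) ≅ a := asIso (θ c.fbar hc adj)
  let e2 : (𝟙_ (DCoh.DQCoh Y)) ≅ O := ObjectProperty.isoMk _ ((DualX.unitIso Y).symm ≪≫ eO.symm)
  let e4 : (LQ c.fbar ⋙ tensorRight (a.obj (𝟙_ (DCoh.DQCoh Y)))) ⋙ ObjectProperty.ι DCoh.IsQCohD ≅
      ObjectProperty.ι DCoh.IsQCohD ⋙ DCoh.Lpull c.fbar ⋙ tensorRight (a.obj (𝟙_ (DCoh.DQCoh Y))).obj :=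
    Iso.refl _
  let B : DCoh.D c.Xbar := (a.obj (𝟙_ (DCoh.DQCoh Y))).obj
  let e3 : (DCoh.restrictD c.j).obj B ≅ (𝟙_ (DCoh.D U))⟦n⟧ :=
    (DCoh.restrictD c.j).mapIso ((ObjectProperty.ι _).mapIso (a.mapIso e2)) ≪≫ e ≪≫
      (shiftFunctor (DCoh.D U) n).mapIso (DualX.unitIso U)
  obtain ⟨e5⟩ := nonempty_restrict_tensor c.j B
  obtain ⟨e6⟩ := TensShift.nonempty_shift_unit (X := U) n
  obtain ⟨e7⟩ := Groth.Agent.S0911.result c.j c.fbar
  have e8 : DCoh.Lpull (c.j ≫ c.fbar) ≅ DCoh.Lpull g := DerPull.lpullCongr c.fac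
  exact ⟨(Functor.isoWhiskerRight ((Functor.isoWhiskerRight e1 (ObjectProperty.ι DCoh.IsQCohD)).symm ≪≫ e4)
      (DCoh.restrictD c.j)) ≪≫
    Functor.isoWhiskerLeft (ObjectProperty.ι DCoh.IsQCohD) (Functor.isoWhiskerLeft (DCoh.Lpull c.fbar)
      (e5 ≪≫ Functor.isoWhiskerLeft (DCoh.Lpull c.j) (MonAdj.tensorRightIso e3 ≪≫ e6)) ≪≫
      Functor.isoWhiskerRight (e7 ≪≫ e8) (shiftFunctor (DCoh.D U) n))⟩

end Groth.Agent.Dual.H492.Glue
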