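import Groth.Agent.Dual.H492.OmegaLine
import Groth.Agent.S3635
import Groth.Agent.Sga67.TensorOps
import Groth.Agent.Sga4B.P1Geom441

/-!
# The dualizing complex of `ℙ¹_Y ⟶ Y` on the chart `𝔸¹_Y`
-/

set_option autoImplicit false

universe u

open CategoryTheory CategoryTheory.Limits AlgebraicGeometry

attribute [local instance] HasDerivedCategory.standard

namespace Groth.Agent.Dual.H492.LineInput

open Groth.Agent.Sga4B Groth.Agent.Smoothlim.ConormalRes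

/-- `(M)|_U` placed in degree `0`, shifted. -/
theorem nonempty_restrict_inD {U X : Scheme.{u}} (j : U ⟶ X) [IsOpenImmersion j]
    [PreservesFiniteLimits (Scheme.Modules.restrictFunctor j)] (M : X.Modules) (n : ℤ) :
    Nonempty ((DCoh.restrictD j).obj ((DCoh.inD X M)⟦n⟧) ≅ (DCoh.inD U (M.restrict j))⟦n⟧) :=
  ⟨((DCoh.restrictD j).commShiftIso n).app _ ≪≫ (shiftFunctor _ n).mapIso
    (((Scheme.Modules.restrictFunctor j).mapDerivedCategorySingleFunctor 0).app M)⟩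

/-- `a(O_Y)|_{𝔸¹_Y} ≅ O[1]`. -/
theorem nonempty_restrict (Y : Scheme.{u}) [IsNoetherian Y] (i : Fin (1 + 1))
    [DCoh.HasRpush (CohB1.ProjSpaceOver.toBase 1 Y)]
    (hf : DCoh.RpushPreservesQCoh (CohB1.ProjSpaceOver.toBase 1 Y))
    (a : DCoh.DQCoh Y ⥤ DCoh.DQCoh (CohB1.ProjSpaceOver 1 Y))
    (adj : DCoh.RpushQ (CohB1.ProjSpaceOver.toBase 1 Y) hf ⊣ a) (O : DCoh.DQCoh Y)
    (hO : Nonempty (O.obj ≅ DCoh.inD Y (Coh.structureModule Y)))
    [PreservesFiniteLimits (Scheme.Modules.restrictFunctor (P1Geom.v Y i))] :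
    Nonempty ((DCoh.restrictD (P1Geom.v Y i)).obj (a.obj O).obj ≅
      (DCoh.inD (AffineSpace (ULift.{u} (Fin 1)) Y) (Coh.structureModule _))⟦(1 : ℤ)⟧) := by
  obtain ⟨e1⟩ := S3635.result Y (CohB1.ProjSpaceOver 1 Y) 1 (CohB1.ProjSpaceOver.toBase 1 Y) hf a adj O hO
    (Omega.sheaf (CohB1.ProjSpaceOver.toBase 1 Y)) (Sga67.TensorOps.isExtPow_one _)
  obtain ⟨e2⟩ := nonempty_restrict_inD (P1Geom.v Y i) (Omega.sheaf (CohB1.ProjSpaceOver.toBase 1 Y)) 1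
  obtain ⟨e3⟩ := OmegaLine.nonempty_omega_line Y
  have e4 : (Omega.sheaf (CohB1.ProjSpaceOver.toBase 1 Y)).restrict (P1Geom.v Y i) ≅
      Omega.sheaf (AffineSpace (ULift.{u} (Fin 1)) Y ↘ Y) :=
    (Scheme.Modules.restrictFunctorIsoPullback (P1Geom.v Y i)).app _ ≪≫
      omegaRestrictIso (f := CohB1.ProjSpaceOver.toBase 1 Y) (f' := AffineSpace (ULift.{u} (Fin 1)) Y ↘ Y)
        (j := P1Geom.v Y i) (l := 𝟙 Y) ((P1Geom.v_toBase Y i).trans (Category.comp_id _).symm)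
  exact ⟨(DCoh.restrictD (P1Geom.v Y i)).mapIso e1 ≪≫ e2 ≪≫
    (shiftFunctor _ (1 : ℤ)).mapIso ((DerivedCategory.singleFunctor _ 0).mapIso (e4 ≪≫ e3))⟩

end Groth.Agent.Dual.H492.LineInput
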