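import Groth.Agent.Dual.H492.Glue
import Groth.Agent.Dual.H310.Indep
import Groth.Agent.Sga4B.P1Geom441

/-!
# The upper shriek functor of `𝔸¹_Y ⟶ Y`

* `main`: for a Noetherian `Y`, any compactification of `𝔸¹_Y ⟶ Y` gives `f^! ≅ Lf^*(-)[1]` on `D^+_QCoh`, from
  the value of the right adjoint for `ℙ¹_Y ⟶ Y` at `O_Y` on the chart `𝔸¹_Y`.
-/

set_option autoImplicit false

universe u

open CategoryTheory CategoryTheory.Limits AlgebraicGeometry

attribute [local instance] HasDerivedCategory.standard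

namespace Groth.Agent.Dual.H492.LineMain

open Groth.Agent.Dcoh.DerSch Groth.Agent.Dual.H310.OpenBC Groth.Agent.Sga4B

variable {Y : Scheme.{u}}

/-- The compactification `𝔸¹_Y ⟶ ℙ¹_Y ⟶ Y`. -/
noncomputable def lineC (Y : Scheme.{u}) : DEt.Compactification (AffineSpace (ULift.{u} (Fin 1)) Y ↘ Y) where
  Xbar := CohB1.ProjSpaceOver 1 Y
  j := P1Geom.v Y 0
  fbar := CohB1.ProjSpaceOver.toBase 1 Y
  isOpenImmersion := P1Geom.isOpenImmersion_v Y 0
  isProper := P1Geom.isProper_toBase Y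
  fac := P1Geom.v_toBase Y 0

/-- The upper shriek functor of the affine line, from the trivialization of the dualizing complex. -/
theorem of_trivialization [IsNoetherian Y] (c : DEt.Compactification (AffineSpace (ULift.{u} (Fin 1)) Y ↘ Y))
    [DCoh.HasRpush c.fbar] (hc : DCoh.RpushPreservesQCoh c.fbar)
    (a : DCoh.DQCoh Y ⥤ DCoh.DQCoh c.Xbar) (adj : DCoh.RpushQ c.fbar hc ⊣ a)
    [PreservesFiniteLimits (Scheme.Modules.restrictFunctor c.j)]
    [DCoh.HasLpull (AffineSpace (ULift.{u} (Fin 1)) Y ↘ Y)]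
    (h : ∀ (_ : DCoh.HasRpush (lineC Y).fbar) (hc' : DCoh.RpushPreservesQCoh (lineC Y).fbar)
      (a' : DCoh.DQCoh Y ⥤ DCoh.DQCoh (lineC Y).Xbar) (_ : DCoh.RpushQ (lineC Y).fbar hc' ⊣ a')
      (O : DCoh.DQCoh Y) (_ : Nonempty (O.obj ≅ DCoh.inD Y (Coh.structureModule Y)))
      (_ : PreservesFiniteLimits (Scheme.Modules.restrictFunctor (lineC Y).j)),
      Nonempty ((DCoh.restrictD (lineC Y).j).obj (a'.obj O).obj ≅
        (DCoh.inD (AffineSpace (ULift.{u} (Fin 1)) Y) (Coh.structureModule _))⟦(1 : ℤ)⟧)) :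
    Nonempty (Dual3.bddι Y ⋙ Dual3.shriekC c a ≅ Dual3.bddι Y ⋙ ObjectProperty.ι _ ⋙
      DCoh.Lpull (AffineSpace (ULift.{u} (Fin 1)) Y ↘ Y) ⋙
        shiftFunctor (DCoh.D (AffineSpace (ULift.{u} (Fin 1)) Y)) (1 : ℤ)) := by
  have hsm : Smooth (lineC Y).fbar := P1Geom.smooth_toBase Y
  have hP : IsNoetherian (lineC Y).Xbar := isNoetherian_of_finiteType (lineC Y).fbar
  have hR : DCoh.HasRpush (lineC Y).fbar := hasRpush (lineC Y).fbar
  have hc' : DCoh.RpushPreservesQCoh (lineC Y).fbar := preservesQCoh _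
  have := isLeftAdjoint_rpushQ (lineC Y).fbar hc'
  let a' := (DCoh.RpushQ (lineC Y).fbar hc').rightAdjoint
  let adj' : DCoh.RpushQ (lineC Y).fbar hc' ⊣ a' := Adjunction.ofIsLeftAdjoint _
  have hj : PreservesFiniteLimits (Scheme.Modules.restrictFunctor (lineC Y).j) := inferInstance
  have hq : QuasiCompact (AffineSpace (ULift.{u} (Fin 1)) Y ↘ Y) := inferInstance
  obtain ⟨e⟩ := H310.Indep.nonempty_indep c (lineC Y) hc hc' a a' adj adj'
  let O : DCoh.DQCoh Y := ⟨DCoh.inD Y (Coh.structureModule Y),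
    PerfA.QCohD.isQCohD_inD _ (Ega2.QCohLocal.isQCoh_structureModule Y)⟩
  have hO : Nonempty (O.obj ≅ DCoh.inD Y (Coh.structureModule Y)) := ⟨Iso.refl _⟩
  obtain ⟨e2⟩ := Glue.main (lineC Y) hc' a' adj' O hO 1 (h hR hc' a' adj' O hO hj)
  exact ⟨Functor.isoWhiskerRight e (ObjectProperty.ι _) ≪≫ Functor.isoWhiskerLeft (Dual3.bddι Y) e2⟩

end Groth.Agent.Dual.H492.LineMain
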