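import Groth.Agent.Smoothlim.OmegaSpec
import Groth.Agent.Vancyc.H878.RelOmega
import Groth.Agent.PerfC.PullRestrict
import Mathlib.AlgebraicGeometry.AffineSpace
import Mathlib.RingTheory.Kaehler.Polynomial

/-!
# `Ω_{𝔸¹_S / S} ≅ O`

* `nonempty_omega_line`: the sheaf of differentials of the affine line over any scheme is trivial.
-/

set_option autoImplicit false

universe u

open CategoryTheory CategoryTheory.Limits AlgebraicGeometry

namespace Groth.Agent.Dual.H492.OmegaLine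

open Groth.Agent.Smoothlim.OmegaSpec Groth.Agent.Smoothlim.ConormalRes
  Groth.Agent.Vancyc.H878.RelOmega Groth.Agent.PerfC.PullRestrict

/-- `Ω_{R[t]/R} ≅ R[t]`. -/
noncomputable def kaehlerEquiv (R : Type u) [CommRing R] :
    Ω[MvPolynomial (ULift.{u} (Fin 1)) R⁄R] ≃ₗ[MvPolynomial (ULift.{u} (Fin 1)) R]
      MvPolynomial (ULift.{u} (Fin 1)) R :=
  (KaehlerDifferential.mvPolynomialBasis R (ULift.{u} (Fin 1))).repr ≪≫ₗ
    Finsupp.uniqueLinearEquiv _ _ ⟨0⟩

/-- `Ω` of `Spec R[t] ⟶ Spec R`. -/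
noncomputable def omegaSpec (R : Type u) [CommRing R] :
    Omega.sheaf (Spec.map (CommRingCat.ofHom (algebraMap R (MvPolynomial (ULift.{u} (Fin 1)) R)))) ≅
      Coh.structureModule (Spec (CommRingCat.of (MvPolynomial (ULift.{u} (Fin 1)) R))) :=
  omegaSpecIso R (MvPolynomial (ULift.{u} (Fin 1)) R) ≪≫
    (tilde.functor (CommRingCat.of (MvPolynomial (ULift.{u} (Fin 1)) R))).mapIso
      (kaehlerEquiv R).toModuleIso ≪≫ tildeSelf

/-- `Ω` of `𝔸¹_R ⟶ Spec R`. -/
noncomputable def omegaAffine (R : Type u) [CommRing R] :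
    Omega.sheaf (AffineSpace (ULift.{u} (Fin 1)) (Spec (CommRingCat.of R)) ↘ Spec (CommRingCat.of R)) ≅
      Coh.structureModule _ := by
  let e := AffineSpace.SpecIso (ULift.{u} (Fin 1)) (CommRingCat.of R)
  let f' := AffineSpace (ULift.{u} (Fin 1)) (Spec (CommRingCat.of R)) ↘ Spec (CommRingCat.of R)
  let f := Spec.map (CommRingCat.ofHom (algebraMap R (MvPolynomial (ULift.{u} (Fin 1)) R)))
  have h : e.hom ≫ f = f' ≫ 𝟙 _ := by
    rw [Category.comp_id]
    exact (Iso.eq_inv_comp e).mp (AffineSpace.SpecIso_inv_over (CommRingCat.of R)).symm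
  exact (omegaRestrictIso (f := f) (f' := f') (j := e.hom) (l := 𝟙 _) h).symm ≪≫
    (Scheme.Modules.pullback e.hom).mapIso (omegaSpec R) ≪≫ pullbackUnit e.hom

/-- `Ω_{𝔸¹_S / S} ≅ O`. -/
theorem nonempty_omega_line (S : Scheme.{u}) :
    Nonempty (Omega.sheaf (AffineSpace (ULift.{u} (Fin 1)) S ↘ S) ≅ Coh.structureModule _) := by
  let g : S ⟶ Spec (CommRingCat.of (ULift.{u} ℤ)) := specULiftZIsTerminal.from S
  have H := AffineSpace.isPullback_map (n := ULift.{u} (Fin 1)) g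
  have hs : QuasiSeparated (AffineSpace (ULift.{u} (Fin 1)) (Spec (CommRingCat.of (ULift.{u} ℤ))) ↘
    Spec (CommRingCat.of (ULift.{u} ℤ))) := inferInstance
  exact ⟨(omegaBC H).symm ≪≫ (Scheme.Modules.pullback _).mapIso (omegaAffine (ULift.{u} ℤ)) ≪≫
    pullbackUnit _⟩

end Groth.Agent.Dual.H492.OmegaLine
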