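import Groth.Agent.Dcoh.PerfDual
import Groth.Agent.LoccohB.LTXInst
import Groth.Agent.Dcoh.MonAdj

/-!
# `- ⊗ 𝟙⟦n⟧ ≅ shift by n` on `D(O_X)`
-/

set_option autoImplicit false

universe u

open CategoryTheory CategoryTheory.Limits AlgebraicGeometry MonoidalCategory

attribute [local instance] HasDerivedCategory.standard

open scoped Groth.Agent.Dcoh.MonCat Groth.Agent.Dcoh.ModD

namespace Groth.Agent.Dual.H492.TensShift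

open Groth.Agent.Dcoh Groth.Agent.PerfC.DTens

variable {X : Scheme.{u}}

/-- `- ⊗ K⟦n⟧ ≅ (K ⊗ -)⟦n⟧`. -/
theorem nonempty_shift (K : DCoh.D X) (n : ℤ) :
    Nonempty (tensorRight (K⟦n⟧) ≅ tensorLeft K ⋙ shiftFunctor (DCoh.D X) n) := by
  obtain ⟨e1⟩ := PerfDual.nonempty_flipIso (K⟦n⟧)
  obtain ⟨s⟩ := LoccohB.LTXInst.nonempty_symm X
  obtain ⟨e2⟩ := LoccohB.LTXInst.nonempty_shift K n
  obtain ⟨e3⟩ := PerfDual.nonempty_objIso K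
  exact ⟨e1.symm ≪≫ (s.app (K⟦n⟧)).symm ≪≫ e2 ≪≫ Functor.isoWhiskerRight e3 _⟩

/-- `- ⊗ 𝟙⟦n⟧ ≅ (-)⟦n⟧`. -/
theorem nonempty_shift_unit (n : ℤ) :
    Nonempty (tensorRight ((𝟙_ (DCoh.D X))⟦n⟧) ≅ shiftFunctor (DCoh.D X) n) := by
  obtain ⟨e⟩ := nonempty_shift (𝟙_ (DCoh.D X)) n
  exact ⟨e ≪≫ Functor.isoWhiskerRight (leftUnitorNatIso (DCoh.D X)) _ ≪≫ Functor.leftUnitor _⟩

end Groth.Agent.Dual.H492.TensShift
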